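import Mathlib
import Cfsg.Agent.Lib.Helper49.SAF.Iface

/-!
# SAF [ARITH] and [ARITH81]: the arithmetic of S4025.
-/

set_option autoImplicit false

namespace Cfsg.Agent.Lib.Helper96.SAF

theorem saf_two_pow_bound : ∀ m : ℕ, m + 7 ≤ 2 ^ (m + 3) := by
  intro m
  induction m with
  | zero => norm_num
  | succ m ih =>
    have : 2 ^ (m + 1 + 3) = 2 * 2 ^ (m + 3) := by ring
    omega

theorem pkgArith : Cfsg.Agent.Lib.Helper49.SAFI.PkgArith := by
  intro p n hp hn hdvd
  have hp2 : 2 ≤ p := hp.two_le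
  have hp4 : 4 ≤ p ^ 2 := by nlinarith
  have hpos : 0 < n * (p ^ 2 - 1) := by
    have h1 : 0 < p ^ 2 - 1 := by omega
    have h2 : 0 < n := by omega
    exact Nat.mul_pos h2 h1
  have hle := Nat.le_of_dvd hpos hdvd
  have hmul : n * (p ^ 2 - 1) = n * p ^ 2 - n := by
    rw [Nat.mul_sub, mul_one]
  have hnle : n ≤ n * p ^ 2 := by nlinarith
  rcases Nat.lt_or_ge n 6 with h6 | h6
  · interval_cases n
    · left; rfl
    · -- n = 4
      exfalso
      simp only [show 4 - 1 = 3 from rfl] at hle hdvd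
      rcases Nat.lt_or_ge p 4 with h4 | h4
      · interval_cases p
        · norm_num at hdvd
        · norm_num at hdvd
      · have h3 : 4 * p ^ 2 ≤ p ^ 3 := by nlinarith
        omega
    · -- n = 5
      simp only [show 5 - 1 = 4 from rfl] at hle hdvd
      rcases Nat.lt_or_ge p 3 with h3 | h3
      · interval_cases p
        right; exact ⟨rfl, rfl⟩
      · exfalso
        have h9 : 9 ≤ p ^ 2 := by nlinarith
        have h4 : p ^ 4 = p ^ 2 * p ^ 2 := by ring
        have h5 : 9 * p ^ 2 ≤ p ^ 4 := by rw [h4]; exact Nat.mul_le_mul_right _ h9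
        omega
  · exfalso
    obtain ⟨m, rfl⟩ : ∃ m, n = m + 6 := ⟨n - 6, by omega⟩
    have h1 : m + 6 - 1 = (m + 3) + 2 := by omega
    rw [h1] at hle
    have h2 : p ^ (m + 3 + 2) = p ^ (m + 3) * p ^ 2 := by ring
    have h3 : 2 ^ (m + 3) ≤ p ^ (m + 3) := Nat.pow_le_pow_left hp2 _
    have h4 := saf_two_pow_bound m
    have h5 : (m + 7) * p ^ 2 ≤ p ^ (m + 3 + 2) := by
      rw [h2]
      exact Nat.mul_le_mul_right _ (h4.trans h3)
    have h6' : (m + 7) * p ^ 2 = (m + 6) * p ^ 2 + p ^ 2 := by ring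
    omega

theorem pkgArith81 : Cfsg.Agent.Lib.Helper49.SAFI.PkgArith81 := by
  intro p n hp hn hmem
  simp only [Set.mem_insert_iff, Set.mem_singleton_iff] at hmem
  have hp2 : 2 ≤ p := hp.two_le
  have hle : p ^ n ≤ 529 := by
    rcases hmem with h | h | h | h | h | h <;> omega
  have hp8 : p ≤ 8 := by
    by_contra hcon
    have h9 : 9 ≤ p := by omega
    have h1 : 9 ^ 3 ≤ p ^ 3 := Nat.pow_le_pow_left h9 3
    have h2 : p ^ 3 ≤ p ^ n := Nat.pow_le_pow_right (by omega) hn
    norm_num at h1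
    omega
  have hn9 : n ≤ 9 := by
    by_contra hcon
    have h10 : 10 ≤ n := by omega
    have h1 : 2 ^ 10 ≤ 2 ^ n := Nat.pow_le_pow_right (by norm_num) h10
    have h2 : 2 ^ n ≤ p ^ n := Nat.pow_le_pow_left hp2 n
    norm_num at h1
    omega
  clear hle
  interval_cases p <;> interval_cases n <;>
    first
      | exact ⟨rfl, rfl⟩
      | (exfalso; norm_num at hmem)

end Cfsg.Agent.Lib.Helper96.SAF
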