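import Mathlib
import Cfsg.Prelude.Def_Perm

/-!
# SAF: the order of the semi-affine and affine groups of a finite field, and the
"automorphism part" homomorphism `semiaffineGroup F →* RingAut F`.
-/

set_option autoImplicit false

namespace Cfsg.Agent.Lib.Helper96.SAF

universe u

section

variable {F : Type u} [Field F]

/-- The data `(a, b, φ)` of a semi-affine map `x ↦ a φ(x) + b` are unique. -/
theorem semi_unique {a a' : Fˣ} {b b' : F} {φ φ' : F ≃+* F}
    (h : ∀ x, (a : F) * φ x + b = (a' : F) * φ' x + b') : a = a' ∧ b = b' ∧ φ = φ' := by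
  have hb : b = b' := by simpa using h 0
  have ha : (a : F) = a' := by
    have h1 := h 1
    simp only [map_one, mul_one, hb] at h1
    exact add_right_cancel h1
  refine ⟨Units.ext ha, hb, ?_⟩
  ext x
  have h1 := h x
  rw [hb, ha] at h1
  exact mul_left_cancel₀ a'.ne_zero (add_right_cancel h1)

/-- The permutation `x ↦ a φ(x) + b`. -/
def semiPerm (a : Fˣ) (b : F) (φ : F ≃+* F) : Equiv.Perm F :=
  (φ.toEquiv.trans (Equiv.mulLeft₀ (a : F) a.ne_zero)).trans (Equiv.addRight b)

theorem semiPerm_apply (a : Fˣ) (b : F) (φ : F ≃+* F) (x : F) :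
    semiPerm a b φ x = (a : F) * φ x + b := rfl

theorem semiPerm_mem (a : Fˣ) (b : F) (φ : F ≃+* F) :
    semiPerm a b φ ∈ Cfsg.semiaffineGroup F :=
  ⟨a, b, φ, fun x => semiPerm_apply a b φ x⟩

theorem affPerm_mem (a : Fˣ) (b : F) :
    semiPerm a b (RingEquiv.refl F) ∈ Cfsg.affineGroup F :=
  ⟨a, b, fun x => semiPerm_apply a b _ x⟩

theorem affine_le_semiaffine : Cfsg.affineGroup F ≤ Cfsg.semiaffineGroup F := by
  rintro σ ⟨a, b, h⟩
  exact ⟨a, b, RingEquiv.refl F, fun x => by rw [h]; rfl⟩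

/-- The parametrisation of the semi-affine group. -/
def semiMap (t : Fˣ × F × (F ≃+* F)) : ↥(Cfsg.semiaffineGroup F) :=
  ⟨semiPerm t.1 t.2.1 t.2.2, semiPerm_mem _ _ _⟩

theorem semiMap_bijective : Function.Bijective (semiMap (F := F)) := by
  constructor
  · rintro ⟨a, b, φ⟩ ⟨a', b', φ'⟩ h
    have h1 : ∀ x, (a : F) * φ x + b = (a' : F) * φ' x + b' := by
      intro x
      have h2 := congrArg (fun σ : ↥(Cfsg.semiaffineGroup F) => (σ : Equiv.Perm F) x) h
      exact h2
    obtain ⟨h3, h4, h5⟩ := semi_unique h1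
    rw [h3, h4, h5]
  · rintro ⟨σ, a, b, φ, h⟩
    refine ⟨(a, b, φ), ?_⟩
    apply Subtype.ext
    apply Equiv.ext
    intro x
    rw [h]
    rfl

theorem card_semiaffineGroup :
    Nat.card ↥(Cfsg.semiaffineGroup F) = Nat.card Fˣ * (Nat.card F * Nat.card (F ≃+* F)) := by
  rw [← Nat.card_congr (Equiv.ofBijective _ (semiMap_bijective (F := F))), Nat.card_prod,
    Nat.card_prod]

/-- The parametrisation of the affine group. -/
def affMap (t : Fˣ × F) : ↥(Cfsg.affineGroup F) :=
  ⟨semiPerm t.1 t.2 (RingEquiv.refl F), affPerm_mem _ _⟩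

theorem affMap_bijective : Function.Bijective (affMap (F := F)) := by
  constructor
  · rintro ⟨a, b⟩ ⟨a', b'⟩ h
    have h1 : ∀ x, (a : F) * (RingEquiv.refl F) x + b = (a' : F) * (RingEquiv.refl F) x + b' := by
      intro x
      have h2 := congrArg (fun σ : ↥(Cfsg.affineGroup F) => (σ : Equiv.Perm F) x) h
      exact h2
    obtain ⟨h3, h4, -⟩ := semi_unique h1
    rw [h3, h4]
  · rintro ⟨σ, a, b, h⟩
    refine ⟨(a, b), ?_⟩
    apply Subtype.ext
    apply Equiv.ext
    intro x
    rw [h]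
    rfl

theorem card_affineGroup :
    Nat.card ↥(Cfsg.affineGroup F) = Nat.card Fˣ * Nat.card F := by
  rw [← Nat.card_congr (Equiv.ofBijective _ (affMap_bijective (F := F))), Nat.card_prod]

/-- The automorphism part of a semi-affine map. -/
noncomputable def semiAut (σ : ↥(Cfsg.semiaffineGroup F)) : F ≃+* F :=
  σ.2.choose_spec.choose_spec.choose

theorem semiAut_spec (σ : ↥(Cfsg.semiaffineGroup F)) :
    ∃ (a : Fˣ) (b : F), ∀ x, (σ : Equiv.Perm F) x = (a : F) * semiAut σ x + b :=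
  ⟨σ.2.choose, σ.2.choose_spec.choose, σ.2.choose_spec.choose_spec.choose_spec⟩

theorem semiAut_eq (σ : ↥(Cfsg.semiaffineGroup F)) (a : Fˣ) (b : F) (φ : F ≃+* F)
    (h : ∀ x, (σ : Equiv.Perm F) x = (a : F) * φ x + b) : semiAut σ = φ := by
  obtain ⟨a', b', h'⟩ := semiAut_spec σ
  have h1 : ∀ x, (a' : F) * semiAut σ x + b' = (a : F) * φ x + b := by
    intro x
    rw [← h', h]
  exact (semi_unique h1).2.2

/-- The automorphism part as a homomorphism. -/
noncomputable def semiAutHom : ↥(Cfsg.semiaffineGroup F) →* RingAut F where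
  toFun := semiAut
  map_one' := semiAut_eq 1 1 0 (RingEquiv.refl F) (fun x => by simp)
  map_mul' σ τ := by
    obtain ⟨a, b, hσ⟩ := semiAut_spec σ
    obtain ⟨c, d, hτ⟩ := semiAut_spec τ
    apply semiAut_eq (σ * τ) (a * Units.map ((semiAut σ : F ≃+* F) : F →* F) c)
      ((a : F) * semiAut σ d + b)
    intro x
    show (σ : Equiv.Perm F) ((τ : Equiv.Perm F) x) = _
    rw [hτ, hσ]
    simp only [map_add, map_mul, Units.val_mul, Units.coe_map, MonoidHom.coe_coe,
      RingAut.mul_apply]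
    ring

theorem semiAutHom_apply (σ : ↥(Cfsg.semiaffineGroup F)) : semiAutHom σ = semiAut σ := rfl

/-- A semi-affine map with trivial automorphism part is affine. -/
theorem mem_affine_of_semiAut_eq_one (σ : ↥(Cfsg.semiaffineGroup F)) (h : semiAutHom σ = 1) :
    (σ : Equiv.Perm F) ∈ Cfsg.affineGroup F := by
  obtain ⟨a, b, hσ⟩ := semiAut_spec σ
  refine ⟨a, b, fun x => ?_⟩
  rw [hσ, ← semiAutHom_apply, h]
  rfl

end

end Cfsg.Agent.Lib.Helper96.SAF
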