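import Mathlib
import Cfsg.Agent.Lib.Helper31.OutCount
import Cfsg.Agent.Lib.Helper49.SAF.Iface
import Cfsg.Agent.Lib.Helper96.SAF.SemiCard

/-!
# SAF [ISO5] and [ISO2]: identification of the semi-affine groups of `GF(32)` and `GF(8)`.
-/

set_option autoImplicit false

namespace Cfsg.Agent.Lib.Helper96.SAF

universe v

theorem galois_two_card (n : ℕ) (hn : n ≠ 0) :
    Nat.card (GaloisField 2 n) = 2 ^ n ∧ Nat.card (GaloisField 2 n)ˣ = 2 ^ n - 1 ∧
      Nat.card (GaloisField 2 n ≃+* GaloisField 2 n) = n := by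
  have h1 : Nat.card (GaloisField 2 n) = 2 ^ n := GaloisField.card 2 n hn
  refine ⟨h1, ?_, ?_⟩
  · rw [Nat.card_units, h1]
  · let _ : Fintype (GaloisField 2 n) := Fintype.ofFinite _
    exact Cfsg.Agent.Lib.Helper31.card_ringAut_of_card 2 n
      (by rw [← Nat.card_eq_fintype_card, h1])

theorem pkgIso5 : Cfsg.Agent.Lib.Helper49.SAFI.PkgIso5.{v} := by
  intro X _ _ f hf r hr1 hr2 hX
  have hr : r = 155 := Nat.dvd_antisymm hr1 hr2
  subst hr
  obtain ⟨h1, h2, h3⟩ := galois_two_card 5 (by norm_num)
  have hcard : Nat.card ↥(Cfsg.semiaffineGroup (GaloisField 2 5)) = 32 * 155 := by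
    rw [card_semiaffineGroup, h1, h2, h3]
    norm_num
  have hbij : Function.Bijective f :=
    (Nat.bijective_iff_injective_and_card f).mpr ⟨hf, by rw [hX, hcard]⟩
  exact ⟨MulEquiv.ofBijective f hbij⟩

theorem pkgIso2 : Cfsg.Agent.Lib.Helper49.SAFI.PkgIso2.{v} := by
  intro X _ _ f hf r hr1 hr2 hX
  obtain ⟨h1, h2, h3⟩ := galois_two_card 3 (by norm_num)
  have hcardS : Nat.card ↥(Cfsg.semiaffineGroup (GaloisField 2 3)) = 168 := by
    rw [card_semiaffineGroup, h1, h2, h3]
    norm_num
  have hcardA : Nat.card ↥(Cfsg.affineGroup (GaloisField 2 3)) = 56 := by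
    rw [card_affineGroup, h1, h2]
    norm_num
  obtain ⟨k, rfl⟩ := hr2
  have hk : k ≤ 3 := by
    have := Nat.le_of_dvd (by norm_num) hr1
    omega
  interval_cases k
  · norm_num at hr1
  · -- r = 7
    right
    have haff : ∀ x : X, ((f x : ↥(Cfsg.semiaffineGroup (GaloisField 2 3))) :
        Equiv.Perm (GaloisField 2 3)) ∈ Cfsg.affineGroup (GaloisField 2 3) := by
      intro x
      apply mem_affine_of_semiAut_eq_one
      set t := semiAutHom (f x) with ht
      have ht3 : t ^ 3 = 1 := by
        have := pow_card_eq_one' (G := RingAut (GaloisField 2 3)) (x := t)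
        rwa [show Nat.card (RingAut (GaloisField 2 3)) = 3 from h3] at this
      have ht56 : t ^ 56 = 1 := by
        have hx : x ^ 56 = 1 := by
          have := pow_card_eq_one' (G := X) (x := x)
          rwa [hX] at this
        rw [ht, ← map_pow, ← map_pow, hx, map_one, map_one]
      have h57 : t ^ 57 = 1 := by
        rw [show 57 = 3 * 19 from rfl, pow_mul, ht3, one_pow]
      rw [show 57 = 56 + 1 from rfl, pow_succ, ht56, one_mul] at h57
      exact h57
    let g : X →* ↥(Cfsg.affineGroup (GaloisField 2 3)) :=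
      { toFun := fun x => ⟨_, haff x⟩
        map_one' := by
          apply Subtype.ext
          show ((f 1 : ↥(Cfsg.semiaffineGroup (GaloisField 2 3))) :
            Equiv.Perm (GaloisField 2 3)) = 1
          rw [map_one]; rfl
        map_mul' := by
          intro x y
          apply Subtype.ext
          show ((f (x * y) : ↥(Cfsg.semiaffineGroup (GaloisField 2 3))) :
            Equiv.Perm (GaloisField 2 3)) = _
          rw [map_mul]; rfl }
    have hg : Function.Injective g := by
      intro x y hxy
      apply hf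
      apply Subtype.ext
      exact congrArg (fun σ : ↥(Cfsg.affineGroup (GaloisField 2 3)) =>
        (σ : Equiv.Perm (GaloisField 2 3))) hxy
    have hbij : Function.Bijective g :=
      (Nat.bijective_iff_injective_and_card g).mpr ⟨hg, by rw [hX, hcardA]⟩
    exact ⟨MulEquiv.ofBijective g hbij⟩
  · norm_num at hr1
  · -- r = 21
    left
    have hbij : Function.Bijective f :=
      (Nat.bijective_iff_injective_and_card f).mpr ⟨hf, by rw [hX, hcardS]⟩
    exact ⟨MulEquiv.ofBijective f hbij⟩

end Cfsg.Agent.Lib.Helper96.SAF
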